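import Cfsg.Agent.Lib.Bd.CI

/-!
# The affine plane case
-/

set_option autoImplicit false
set_option linter.unusedSectionVars false

namespace Cfsg.Agent.BdI

open MulAction Cfsg.Agent.AIC Cfsg.Agent.Bd

variable {G Ω : Type*} [Group G] [MulAction G Ω] {q Q : ℕ}

/-- The hypotheses of the affine case. -/
structure Aff (S : St G Ω q Q) : Prop where
  full : S.Full
  card : ∀ {x : Ω} {t : G}, t ∈ I (S.N x) → (F Ω t).ncard = Q
  semi : ∀ {x p : Ω} {t s : G}, t ∈ I (S.N x) → s ∈ SS (S.N x) t → t • p ≠ p → s • p = p → s = 1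
  fixS : ∀ {x y : Ω} {t s : G}, t ∈ I (S.N x) → s ∈ SS (S.N x) t → t • y = y → s • y = y
  eqS : ∀ {x y : Ω} {t : G}, t ∈ I (S.N x) → t • y = y → SS (S.N x) t = SS (S.N y) t
  ce2 : ∀ {x : Ω} {c : G} {k : ℕ}, c • x = x → Ce (S.N x) c → c ^ 2 ^ k = 1 → c = 1

namespace Aff

variable [Finite G] [Finite Ω] {S : St G Ω q Q} (h : Aff S) {x y p r : Ω} {t u v g : G}
include h

theorem line_eq (ht : t ∈ I (S.N x)) (hu : u ∈ I (S.N y)) (e : Commute t u) (h1 : t • r = r)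
    (h2 : u • r = r) (w : Ω) : t • w = w ↔ u • w = w :=
  h.full.iff S (S.closedI ht h1) (S.closedI hu h2) e w

theorem comm2 (ht : t ∈ I (S.N x)) (hu : u ∈ I (S.N y)) (hpr : p ≠ r) (h1 : t • p = p)
    (h2 : t • r = r) (h3 : u • p = p) (h4 : u • r = r) : Commute t u :=
  S.bor_of_full h.full p r hpr t (S.closedI ht h1) u (S.closedI hu h3) h2 h4

theorem exists_par (ht : t ∈ I (S.N x)) (p : Ω) : ∃ u ∈ I (S.N p), Commute u t := by
  by_cases hp : t • p = p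
  · exact ⟨t, S.closedI ht hp, Commute.refl t⟩
  obtain ⟨u, hu, e⟩ := S.even p (t • p) (Ne.symm hp)
  have htt : t • t • p = p := by rw [← mul_smul, ht.2.2, one_smul]
  have h1 := S.conjI t hu
  have h2 : (t * u * t⁻¹) • p = p := by
    have := (conj_fix (g := t)).2 e
    rwa [htt] at this
  have h3 : Commute (t * u * t⁻¹) u :=
    h.comm2 h1 hu (Ne.symm hp) h2 (S.fixI h1) (S.fixI hu) e
  obtain ⟨z, hz, h4, h5⟩ := (S.loc p).exists_centZ hu (g := t) (k := 1)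
    (by rw [pow_one, pow_two, ht.2.2]) fun z hz => by
      have := S.conjZ t hu hz
      rwa [h.full.Z_eq S h1 h2, (S.loc p).Z_eq (S.closedI h1 h2) hu h3] at this
  exact ⟨z, (S.loc p).Z_I hu hz h4, h5.symm⟩

theorem par_uniq (ht : t ∈ I (S.N x)) (hu : u ∈ I (S.N p)) (hv : v ∈ I (S.N p))
    (h1 : ∀ w : Ω, t • w = w → u • w ≠ w) (h2 : ∀ w : Ω, t • w = w → v • w ≠ w) :
    Commute u v := by
  by_contra hne
  have hp : t • p ≠ p := fun e => h1 p e (S.fixI hu)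
  have key : ∀ y : Ω, ∃ a, t • y = y → a ∈ I (S.N p) ∧ a • y = y := fun y => by
    by_cases hy : t • y = y
    · obtain ⟨a, ha⟩ := S.even p y (by rintro rfl; exact hp hy)
      exact ⟨a, fun _ => ha⟩
    · exact ⟨1, fun e => absurd e hy⟩
  choose f hf using key
  have inj : ∀ a ∈ F Ω t, ∀ b ∈ F Ω t, Commute (f a) (f b) → a = b := fun a ha b hb e => by
    by_contra hab
    have h3 := (h.line_eq (hf a ha).1 (hf b hb).1 e (S.fixI (hf a ha).1) (S.fixI (hf b hb).1) b).2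
      (hf b hb).2
    have h4 := h.comm2 ht (hf a ha).1 hab ha hb (hf a ha).2 h3
    exact hp ((h.line_eq ht (hf a ha).1 h4 ha (hf a ha).2 p).2 (S.fixI (hf a ha).1))
  have nu : ∀ {u}, u ∈ I (S.N p) → (∀ w : Ω, t • w = w → u • w ≠ w) → ∀ a ∈ F Ω t,
      ¬ Commute u (f a) := fun {u} hu h1 a ha e =>
    h1 a ha ((h.line_eq hu (hf a ha).1 e (S.fixI hu) (S.fixI (hf a ha).1) a).2 (hf a ha).2)
  have h3 := (S.loc p).ncard_le_of_nc (X := insert u (insert v (f '' F Ω t))) (by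
    rintro _ (rfl | rfl | ⟨a, ha, rfl⟩)
    · exact hu
    · exact hv
    · exact (hf a ha).1) (by
    rintro _ (rfl | rfl | ⟨a, ha, rfl⟩) _ (rfl | rfl | ⟨b, hb, rfl⟩) e
    · rfl
    · exact absurd e hne
    · exact absurd e (nu hu h1 b hb)
    · exact absurd e.symm hne
    · rfl
    · exact absurd e (nu hv h2 b hb)
    · exact absurd e.symm (nu hu h1 a ha)
    · exact absurd e.symm (nu hv h2 a ha)
    · rw [inj a ha b hb e])
  rw [Set.ncard_insert_of_notMem, Set.ncard_insert_of_notMem, Set.InjOn.ncard_image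
    (fun a ha b hb e => inj a ha b hb (by rw [e])), h.card ht] at h3
  · omega
  · rintro ⟨a, ha, e⟩
    exact nu hv h2 a ha (by rw [e])
  · rintro (e | ⟨a, ha, e⟩)
    · exact hne (by rw [e])
    · exact nu hu h1 a ha (by rw [e])

theorem disj_of_comm (ht : t ∈ I (S.N x)) (hu : u ∈ I (S.N y)) (e : Commute t u)
    (hp : t • p ≠ p) (hp' : u • p = p) (w : Ω) (h1 : t • w = w) : u • w ≠ w := fun h2 =>
  hp ((h.line_eq ht hu e h1 h2 p).2 hp')

theorem norm_of_disj (ht : t ∈ I (S.N x)) (hu : u ∈ I (S.N y))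
    (h1 : ∀ w : Ω, t • w = w → u • w ≠ w) :
    Commute (t * u * t⁻¹) u ∧ (t * u * t⁻¹) • y = y := by
  have hy : t • y ≠ y := fun e => h1 y e (S.fixI hu)
  obtain ⟨z, hz, e⟩ := h.exists_par ht y
  have h2 := h.par_uniq ht hz hu (h.disj_of_comm ht hz e.symm hy (S.fixI hz)) h1
  have h3 : z • t • y = t • y := comm_fix e.symm (S.fixI hz)
  have h4 := S.conjI t hu
  have h5 : Commute z (t * u * t⁻¹) := by
    rw [← conj_eq_of_commute e.symm]; exact (commute_conj_iff _ _ _).2 h2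
  have h6 := (h.line_eq hz h4 h5 h3 (S.fixI h4) y).1 (S.fixI hz)
  exact ⟨(S.loc y).trans (S.closedI h4 h6) hz hu h5.symm h2, h6⟩

theorem comm_of_disj (ht : t ∈ I (S.N x)) (hu : u ∈ I (S.N y))
    (h1 : ∀ w : Ω, t • w = w → u • w ≠ w) : Commute t u := by
  obtain ⟨-, h2⟩ := h.norm_of_disj ht hu h1
  obtain ⟨h3, h4⟩ := h.norm_of_disj hu ht fun w a b => h1 w b a
  have h5 := S.closedI (S.conjI u ht) h4
  have h6 : t * (u * t * u⁻¹) ∈ ZZ (S.N x) t :=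
    mul_mem ((S.loc x).self_mem ht) ((S.loc x).memZ' ht h5 h3)
  have h7 : (t * (u * t * u⁻¹)) • y = y := by
    rw [ht.2.inv_eq] at h2
    rw [hu.2.inv_eq, ← mul_assoc, ← mul_assoc, mul_smul, S.fixI hu, h2]
  by_cases h8 : t * (u * t * u⁻¹) = 1
  · apply Commute.symm
    apply commute_of_conj_eq
    exact mul_left_cancel (h8.trans ht.2.2.symm)
  · have h9 := (S.loc x).Z_I ht h6 h8
    exact absurd (S.fixI hu) (h1 y ((h.line_eq h9 ht ((S.loc x).Z_comm ht h6) (S.fixI h9)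
      (S.fixI ht) y).1 h7))

theorem trans (ht : t ∈ S.D) (hu : u ∈ S.D) (hv : v ∈ S.D) (e : Commute t u) (e' : Commute u v) :
    Commute t v := by
  obtain ⟨x, ht⟩ := ht
  obtain ⟨y, hu⟩ := hu
  obtain ⟨p, hv⟩ := hv
  by_cases h1 : ∀ w : Ω, t • w = w → v • w ≠ w
  · exact h.comm_of_disj ht hv h1
  push Not at h1
  obtain ⟨r, h1, h2⟩ := h1
  by_cases h3 : u • r = r
  · exact (S.loc r).trans (S.closedI ht h1) (S.closedI hu h3) (S.closedI hv h2) e e'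
  · exact h.par_uniq hu (S.closedI ht h1) (S.closedI hv h2) (h.disj_of_comm hu ht e.symm h3 h1)
      (h.disj_of_comm hu hv e' h3 h2)

theorem meet (ht : t ∈ I (S.N x)) (hu : u ∈ I (S.N y)) (e : ¬ Commute t u) :
    ∃ w : Ω, t • w = w ∧ u • w = w := by
  by_contra hc
  push Not at hc
  exact e (h.comm_of_disj ht hu hc)

theorem cent (ht : t ∈ I (S.N x)) (hu : u ∈ I (S.N y)) (e : Commute u t) (hx : u • x ≠ x) :
    ∃ p, ∃ u' ∈ I (S.N p), u • p = p ∧ Commute u' u ∧ ∀ s ∈ SS (S.N x) t, Commute s u' := by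
  have L := S.loc x
  obtain ⟨m, hm, e1⟩ := L.exists_nc ht
  let X : Set G := {u | u ∈ S.D ∧ Commute u t ∧ u • x ≠ x}
  have key : ∀ u : G, ∃ w : Ω, u ∈ X → m • w = w ∧ u • w = w := fun u => by
    by_cases hu : u ∈ X
    · obtain ⟨y, hy⟩ := hu.1
      obtain ⟨w, hw⟩ := h.meet hm hy fun e' =>
        e1 (h.trans ⟨x, ht⟩ hu.1 ⟨x, hm⟩ hu.2.1.symm e'.symm)
      exact ⟨w, fun _ => hw⟩
    · exact ⟨x, fun e => absurd e hu⟩
  choose f hf using key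
  have c1 : X.ncard = (F Ω m \ {x}).ncard * (q - 1) := by
    refine ncard_eq_fibers (Set.toFinite _) f (fun u hu => ⟨(hf u hu).1, fun e => hu.2.2 ?_⟩)
      (fun w hw => ?_) (Set.toFinite _)
    · rw [← Set.mem_singleton_iff.1 e]; exact (hf u hu).2
    · obtain ⟨a, ha, e2⟩ := h.exists_par ht w
      rw [← (S.loc w).ncard_Z ha]
      congr 1
      ext b
      constructor
      · rintro ⟨hb, rfl⟩
        obtain ⟨y, hy⟩ := hb.1
        exact ⟨(S.loc _).memZ' ha (S.closedI hy (hf b hb).2)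
          (h.trans hb.1 ⟨x, ht⟩ ⟨_, ha⟩ hb.2.1 e2.symm), hy.2.1⟩
      · rintro ⟨h1, h2⟩
        have hb := (S.loc w).Z_I ha h1 h2
        have h3 := h.trans ⟨_, hb⟩ ⟨_, ha⟩ ⟨x, ht⟩ ((S.loc w).Z_comm ha h1) e2
        have n1 : ¬ Commute m b := fun e' => e1 (h.trans ⟨x, ht⟩ ⟨_, hb⟩ ⟨x, hm⟩ h3.symm e'.symm)
        have hX : b ∈ X := ⟨⟨_, hb⟩, h3, fun e' =>
          n1 (h.comm2 hm hb hw.2 hw.1 (S.fixI hm) (S.fixI hb) e')⟩
        refine ⟨hX, ?_⟩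
        by_contra hne
        exact n1 (h.comm2 hm hb hne (hf b hX).1 hw.1 (hf b hX).2 (S.fixI hb))
  rw [Set.ncard_sdiff_singleton_of_mem (mem_F.2 (S.fixI hm)), h.card hm] at c1
  obtain ⟨u0, hu0, h0⟩ := exists_fixed_cj (L.isPGroup_S ht) (X := X) (Set.toFinite _) (by
    rintro s hs a ⟨⟨y, ha⟩, h1, h2⟩
    refine ⟨⟨_, S.conjI s ha⟩, ?_, fun e' => h2 ?_⟩
    · rw [← conj_eq_of_commute (L.S_comm ht hs)]; exact (commute_conj_iff _ _ _).2 h1
    · rwa [← S.fixS ht hs, conj_fix] at e') (by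
    rw [c1]
    obtain ⟨a, ha⟩ := L.four_dvd
    obtain ⟨b, hb⟩ := L.four_dvd.trans L.q_dvd
    have := L.four_le
    have := L.four_leQ
    rw [← even_iff_two_dvd, Nat.even_mul, Nat.even_iff, Nat.even_iff]
    omega)
  have hX : u ∈ X := ⟨⟨y, hu⟩, e, hx⟩
  have nx : ∀ a ∈ X, x ≠ f a := fun a ha e' => ha.2.2 (by rw [e']; exact (hf a ha).2)
  obtain ⟨g0, g1, g2⟩ := S.two x (f u0) x (f u) (nx u0 hu0) (nx u hX)
  have a1 := S.conjI' ht g1
  have a2 := S.conjI' hm g1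
  have a3 : Commute (g0 * m * g0⁻¹) m := h.comm2 a2 hm (nx u hX)
    (S.fixI a2) (by rw [← g2]; exact conj_fix.2 (hf u0 hu0).1) (S.fixI hm) (hf u hX).1
  obtain ⟨s, hs, a4⟩ := L.rex hm a1 ht (fun e' => e1 ((commute_conj_iff g0 _ _).1
    (L.trans a1 hm a2 e'.symm a3.symm))) fun e' => e1 e'.symm
  have b1 : (s * g0) • x = x := by rw [mul_smul, g1, S.fixS hm hs]
  have b2 : (s * g0) • f u0 = f u := by rw [mul_smul, g2, h.fixS hm hs (hf u hX).1]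
  have b3 : Commute (s * g0 * t * (s * g0)⁻¹) t := by
    convert a4 using 1
    group
  generalize s * g0 = k at *
  obtain ⟨y0, hy0⟩ := hu0.1
  have b4 := S.conjI' (S.closedI hy0 (hf u0 hu0).2) b2
  refine ⟨f u, _, b4, (hf u hX).2, h.trans ⟨_, b4⟩ ⟨x, ht⟩ ⟨y, hu⟩ (h.trans ⟨_, b4⟩
    ⟨x, S.conjI' ht b1⟩ ⟨x, ht⟩ ((commute_conj_iff _ _ _).2 hu0.2.1) b3) e.symm, fun s hs => ?_⟩
  have := (commute_conj_iff k _ _).2 (h0 _ ((L.nmS ht (S.nm b1) b3).inv s hs))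
  convert this using 1
  group

theorem S_fix (ht : t ∈ I (S.N x)) (hu : u ∈ I (S.N y)) (e : Commute u t) (hx : u • x ≠ x)
    {s : G} (hs : s ∈ SS (S.N x) t) (hp : u • p = p) : u • s • p = s • p := by
  obtain ⟨r, u', h1, h2, h3, h4⟩ := h.cent ht hu e hx
  have := h.line_eq h1 hu h3 (S.fixI h1) h2
  exact (this _).1 (comm_fix (h4 s hs) ((this _).2 hp))

theorem S_nm (ht : t ∈ I (S.N x)) (hu : u ∈ I (S.N y)) (e : Commute u t) (hx : u • x ≠ x)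
    {s : G} (hs : s ∈ SS (S.N x) t) : Nm (SS (S.N y) u) s := by
  obtain ⟨r, u', h1, h2, h3, h4⟩ := h.cent ht hu e hx
  rw [h.eqS hu h2, ← (S.loc r).S_eq h1 (S.closedI hu h2) h3]
  intro a ha
  have := S.conjS s h1 ha
  rwa [conj_eq_of_commute (h4 s hs), ← h.eqS h1 (comm_fix (h4 s hs) (S.fixI h1))] at this

theorem S_comm (ht : t ∈ I (S.N x)) (hu : u ∈ I (S.N y)) (e : Commute u t) (hx : u • x ≠ x)
    {s s' : G} (hs : s ∈ SS (S.N x) t) (hs' : s' ∈ SS (S.N y) u) : Commute s s' := by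
  have hy : t • y ≠ y := fun e' => h.disj_of_comm hu ht e hx (S.fixI ht) y (S.fixI hu) e'
  have h1 : s * s' * s⁻¹ * s'⁻¹ ∈ SS (S.N y) u := mul_mem (h.S_nm ht hu e hx hs _ hs') (inv_mem hs')
  have h2 : s * s' * s⁻¹ * s'⁻¹ ∈ SS (S.N x) t := by
    have := mul_mem hs (h.S_nm hu ht e.symm hy hs' _ (inv_mem hs))
    convert this using 1
    group
  have h3 := h.semi ht h2 hy (S.fixS hu h1)
  apply commute_of_conj_eq
  exact mul_inv_eq_one.1 h3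

theorem S_reg (ht : t ∈ I (S.N x)) (hu : u ∈ I (S.N y)) (e : Commute u t) (hx : u • x ≠ x)
    (hp : u • p = p) (hr : u • r = r) : ∃ s ∈ SS (S.N x) t, s • p = r := by
  have h1 : t • p ≠ p := fun e' => h.disj_of_comm hu ht e hx (S.fixI ht) p hp e'
  have h2 : (fun g : G => g • p) '' (SS (S.N x) t) = F Ω u := by
    refine Set.eq_of_subset_of_ncard_le ?_ ?_ (Set.toFinite _)
    · rintro _ ⟨s, hs, rfl⟩; exact h.S_fix ht hu e hx hs hp
    · rw [ncard_orb (x := p) fun g hg e' => h.semi ht hg h1 e', h.card hu, (S.loc x).cardS ht]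
  exact (h2 ▸ hr : r ∈ (fun g : G => g • p) '' (SS (S.N x) t))

theorem exists_pts (hm : u ∈ I (S.N x)) :
    ∃ y y' : Ω, u • y = y ∧ u • y' = y' ∧ y ≠ x ∧ y' ≠ x ∧ y ≠ y' := by
  have c1 : 1 < (F Ω u \ {x}).ncard := by
    rw [Set.ncard_sdiff_singleton_of_mem (mem_F.2 (S.fixI hm)), h.card hm]
    have := (S.loc x).four_leQ
    omega
  obtain ⟨a, b, ha, hb, e⟩ := (Set.one_lt_ncard_iff (Set.toFinite _)).1 c1
  exact ⟨a, b, ha.1, hb.1, ha.2, hb.2, e⟩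

theorem Q_eq (x : Ω) : Q = q := by
  by_contra hQ
  obtain ⟨t, ht, m, hm, e1⟩ := (S.loc x).nc
  obtain ⟨y, y', h1, h2, h3, h4, h5⟩ := h.exists_pts hm
  obtain ⟨u, hu, e2⟩ := h.exists_par ht y
  obtain ⟨u', hu', e3⟩ := h.exists_par ht y'
  have n1 : ¬ Commute u m := fun e => e1 (h.trans ⟨_, ht⟩ ⟨_, hu⟩ ⟨_, hm⟩ e2.symm e)
  have n2 : ¬ Commute u' m := fun e => e1 (h.trans ⟨_, ht⟩ ⟨_, hu'⟩ ⟨_, hm⟩ e3.symm e)
  have a1 : u • x ≠ x := fun e => n1 (h.comm2 hu hm h3 (S.fixI hu) e h1 (S.fixI hm))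
  have a2 : u' • x ≠ x := fun e => n2 (h.comm2 hu' hm h4 (S.fixI hu') e h2 (S.fixI hm))
  have a3 : u • y' ≠ y' := fun e => n1 (h.comm2 hu hm h5 (S.fixI hu) e h1 h2)
  have a4 : t • y ≠ y := fun e => e1 (h.comm2 ht hm h3 e (S.fixI ht) h1 (S.fixI hm))
  have a5 : t • y' ≠ y' := fun e => e1 (h.comm2 ht hm h4 e (S.fixI ht) h2 (S.fixI hm))
  obtain ⟨s, hs, e4⟩ := (S.loc y).sq hu hQ ((S.loc y).self_mem hu)
  obtain ⟨s', hs', e5⟩ := h.S_reg hu' ht e3.symm a5 (S.fixI ht)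
    (h.S_fix hu ht e2.symm a4 hs (S.fixI ht))
  have b1 : (s'⁻¹ * s) • x = x := by rw [mul_smul, ← e5, inv_smul_smul]
  have b2 : Ce (SS (S.N x) t) (s'⁻¹ * s) := fun a ha =>
    (h.S_comm ht hu' e3 a2 ha hs').symm.inv_left.mul_left (h.S_comm ht hu e2 a1 ha hs).symm
  have b3 : Commute s' s :=
    h.S_comm hu' hu (h.trans ⟨_, hu⟩ ⟨_, ht⟩ ⟨_, hu'⟩ e2 e3.symm) a3 hs' hs
  obtain ⟨z, hz, b4⟩ := (S.loc x).inn_of_ce ht (S.nm b1) b2
  have hz' := (S.loc x).Z_le_S ht hz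
  have b5 := h.ce2 (k := 2) (by rw [mul_smul, b1, inv_smul_eq_iff, S.fixZ ht hz]) b4.ce (by
    rw [(b2 z hz').symm.inv_left.mul_pow, b3.inv_left.mul_pow, inv_pow, inv_pow,
      show 2 ^ 2 = 4 from rfl, (S.loc x).S_four ht hz', (S.loc y).S_four hu hs,
      (S.loc y').S_four hu' hs']
    simp)
  rw [inv_mul_eq_one] at b5
  have b6 := (S.loc x).Z_sq ht hz
  rw [b5, ← pow_two, b3.inv_left.mul_pow, inv_pow, inv_mul_eq_one, pow_two, pow_two, e4] at b6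
  exact a3 (b6 ▸ S.fixS hu' (mul_mem hs' hs'))

omit h in
/-- The dilatations. -/
def Dil (h : Aff S) : Subgroup G where
  carrier := {g | ∀ u ∈ S.D, Commute (g * u * g⁻¹) u}
  one_mem' u _ := by simp
  mul_mem' {a b} ha hb u hu := by
    obtain ⟨x, hx⟩ := hu
    refine h.trans ⟨_, S.conjI _ hx⟩ ⟨_, S.conjI b hx⟩ ⟨x, hx⟩ ?_ (hb u ⟨x, hx⟩)
    convert ha _ ⟨_, S.conjI b hx⟩ using 1
    group
  inv_mem' {a} ha u hu := by
    rw [← commute_conj_iff a]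
    convert (ha u hu).symm using 1
    group

omit h in
/-- The translations. -/
def T (h : Aff S) : Set G := {g | g ∈ h.Dil ∧ g * g = 1 ∧ ∃ u ∈ S.D, ∃ a b, g = a * b ∧
  (a = 1 ∨ a ∈ S.D ∧ Commute a u) ∧ b ∈ S.D ∧ Commute b u}

theorem T_comm {a b w : G} (hu : u ∈ S.D) (ha : a = 1 ∨ a ∈ S.D ∧ Commute a u)
    (hb : b ∈ S.D ∧ Commute b u) (hw : w ∈ S.D) (e : Commute w u) : Commute (a * b) w := by
  refine Commute.mul_left ?_ (h.trans hb.1 hu hw hb.2 e.symm)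
  rcases ha with rfl | ha
  · exact Commute.one_left _
  · exact h.trans ha.1 hu hw ha.2 e.symm

theorem exists_T (hxy : x ≠ y) : ∃ g ∈ h.T, g • x = y := by
  have hQ := h.Q_eq x
  have L := S.loc x
  obtain ⟨u, hu, e0⟩ := S.even x y hxy
  obtain ⟨m, hm, e1⟩ := L.exists_nc hu
  obtain ⟨p, -, h1, -, h3, -⟩ := h.exists_pts hm
  obtain ⟨t, ht, e2⟩ := h.exists_par hu p
  obtain ⟨s, hs, e3⟩ := h.S_reg ht hu e2.symm
    (fun e => e1 (h.comm2 hu hm h3 e (S.fixI hu) h1 (S.fixI hm))) (S.fixI hu) e0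
  rw [(S.loc p).S_eq_Z ht hQ] at hs
  have hsI := (S.loc p).Z_I ht hs (by rintro rfl; exact hxy (by simpa using e3))
  have c1 : Commute s u := h.trans ⟨_, hsI⟩ ⟨_, ht⟩ ⟨_, hu⟩ ((S.loc p).Z_comm ht hs) e2
  have hv := S.conjI s hm
  obtain ⟨v, hv', e4⟩ := h.exists_par hv x
  obtain ⟨z, hz, e5⟩ := L.rex hu hv' hm (fun e => e1 (by
    rw [← commute_conj_iff s, conj_eq_of_commute c1]
    exact h.trans ⟨_, hu⟩ ⟨_, hv'⟩ ⟨_, hv⟩ e e4)) e1
  have e6 : z • y = y := h.fixS hu hz e0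
  rw [L.S_eq_Z hu hQ] at hz
  have hz' : z = 1 ∨ z ∈ S.D ∧ Commute z u := by
    by_cases e : z = 1
    · exact Or.inl e
    · exact Or.inr ⟨⟨_, L.Z_I hu hz e⟩, L.Z_comm hu hz⟩
  have c2 := fun w => h.T_comm (w := w) ⟨_, hu⟩ hz' ⟨⟨_, hsI⟩, c1⟩
  have c3 : Commute (z * s * m * (z * s)⁻¹) m := by
    refine h.trans ⟨_, S.conjI _ hm⟩ ⟨_, S.conjI z hv'⟩ ⟨_, hm⟩ ?_ e5
    convert (commute_conj_iff z _ _).2 e4.symm using 1
    group
  have c4 : Commute z s := by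
    have := c2 s ⟨_, hsI⟩ c1
    simpa using this.mul_left (Commute.refl s).inv_left
  refine ⟨z * s, ⟨fun w hw => ?_, ?_, u, ⟨_, hu⟩, z, s, rfl, hz', ⟨_, hsI⟩, c1⟩,
    by rw [mul_smul, e3, e6]⟩
  · by_cases e : Commute w u
    · rw [conj_eq_of_commute (c2 w hw e)]
    obtain ⟨r, hr⟩ := hw
    obtain ⟨w', hw', e7⟩ := h.exists_par hr x
    obtain ⟨a, ha, e8⟩ := L.rex hu hm hw' e1 fun e' =>
      e (h.trans ⟨_, hr⟩ ⟨_, hw'⟩ ⟨_, hu⟩ e7.symm e'.symm)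
    rw [L.S_eq_Z hu hQ] at ha
    have c5 : Commute (z * s) a := by
      by_cases e' : a = 1
      · rw [e']; exact Commute.one_right _
      · exact c2 a ⟨_, L.Z_I hu ha e'⟩ (L.Z_comm hu ha)
    have d1 := S.conjI a hm
    have d2 : Commute (a * m * a⁻¹) w := h.trans ⟨_, d1⟩ ⟨_, hw'⟩ ⟨_, hr⟩ e8 e7
    generalize z * s = k at *
    refine h.trans ⟨_, S.conjI _ hr⟩ ⟨_, S.conjI k d1⟩ ⟨_, hr⟩
      ((commute_conj_iff _ _ _).2 d2.symm) (h.trans ⟨_, S.conjI k d1⟩ ⟨_, d1⟩ ⟨_, hr⟩ ?_ d2)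
    convert (commute_conj_iff a _ _).2 c3 using 1
    calc _ = k * a * m * (k * a)⁻¹ := by group
      _ = _ := by rw [c5.eq]; group
  · rw [mul_assoc, ← mul_assoc s, ← c4.eq, mul_assoc, hsI.2.2, mul_one, L.Z_sq hu hz]

theorem T_commute {g' : G} (hg : g ∈ h.T) (hg' : g' ∈ h.T) : Commute g g' := by
  obtain ⟨d, -, u, hu, a, b, rfl, ha, hb⟩ := hg
  obtain ⟨d', -, u', hu', a', b', rfl, ha', hb'⟩ := hg'
  have c := fun w => h.T_comm (w := w) hu ha hb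
  have c' := fun w => h.T_comm (w := w) hu' ha' hb'
  by_cases e : Commute u' u
  · refine Commute.mul_right ?_ (c _ hb'.1 (h.trans hb'.1 hu' hu hb'.2 e))
    rcases ha' with rfl | ha'
    · exact Commute.one_right _
    · exact c _ ha'.1 (h.trans ha'.1 hu' hu ha'.2 e)
  generalize a * b = g at *
  generalize a' * b' = g' at *
  have key : ∀ {g g' u : G}, g' ∈ h.Dil → u ∈ S.D → (∀ w ∈ S.D, Commute w u → Commute g w) →
      ∀ w ∈ S.D, Commute w u → Commute (g * g' * g⁻¹ * g'⁻¹) w := by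
    rintro g g' u d' hu c w ⟨x, hw⟩ e
    have h1 := c _ ⟨_, S.conjI g'⁻¹ hw⟩
      (h.trans ⟨_, S.conjI g'⁻¹ hw⟩ ⟨_, hw⟩ hu (h.Dil.inv_mem d' w ⟨_, hw⟩) e)
    have h2 := (commute_conj_iff g' _ _).2 h1.inv_left
    rw [show g' * (g'⁻¹ * w * g'⁻¹⁻¹) * g'⁻¹ = w by group] at h2
    have h3 := (c w ⟨_, hw⟩ e).mul_left h2
    rwa [← mul_assoc, ← mul_assoc] at h3
  apply commute_of_conj_eq
  rw [← mul_inv_eq_one]
  refine S.faith _ fun p => ?_
  obtain ⟨x, hx⟩ := hu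
  obtain ⟨x', hx'⟩ := hu'
  obtain ⟨w, hw, e1⟩ := h.exists_par hx p
  obtain ⟨w', hw', e2⟩ := h.exists_par hx' p
  have k1 := key d' ⟨x, hx⟩ c w ⟨_, hw⟩ e1
  have k2 := (key d ⟨x', hx'⟩ c' w' ⟨_, hw'⟩ e2).inv_left
  rw [show (g' * g * g'⁻¹ * g⁻¹)⁻¹ = g * g' * g⁻¹ * g'⁻¹ by group] at k2
  by_contra hne
  have k3 := h.comm2 hw hw' hne (comm_fix k1 (S.fixI hw)) (S.fixI hw) (comm_fix k2 (S.fixI hw'))
    (S.fixI hw')
  exact e (h.trans ⟨_, hx'⟩ ⟨_, hw⟩ ⟨_, hx⟩ (h.trans ⟨_, hx'⟩ ⟨_, hw'⟩ ⟨_, hw⟩ e2.symm k3.symm) e1)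

theorem T_conj (k : G) (hg : g ∈ h.T) : k * g * k⁻¹ ∈ h.T := by
  have cD : ∀ {a : G} (k : G), a ∈ S.D → k * a * k⁻¹ ∈ S.D := fun k ⟨_, ha⟩ => ⟨_, S.conjI k ha⟩
  obtain ⟨d, e, u, hu, a, b, rfl, ha, hb⟩ := hg
  refine ⟨fun w hw => ?_, ?_, _, cD k hu, k * a * k⁻¹, k * b * k⁻¹, by group, ?_, cD k hb.1,
    (commute_conj_iff _ _ _).2 hb.2⟩
  · convert (commute_conj_iff k _ _).2 (d _ (cD k⁻¹ hw)) using 1 <;> group
  · calc _ = k * (a * b * (a * b)) * k⁻¹ := by group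
      _ = 1 := by rw [e]; group
  · rcases ha with rfl | ha
    · exact Or.inl (by group)
    · exact Or.inr ⟨cD k ha.1, (commute_conj_iff _ _ _).2 ha.2⟩

theorem regular : ∃ R : Subgroup G, R.Normal ∧ (∀ x y : Ω, ∃ r ∈ R, r • x = y) ∧
    ∀ x : Ω, ∀ r ∈ R, r • x = x → r = 1 := by
  have h1 : ∀ a ∈ Subgroup.closure h.T, ∀ b ∈ Subgroup.closure h.T, Commute a b := by
    intro a ha b hb
    refine Subgroup.closure_induction (p := fun a _ => Commute a b) (fun a ha => ?_)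
      (Commute.one_left _) (fun _ _ _ _ => Commute.mul_left) (fun _ _ => Commute.inv_left) ha
    exact Subgroup.closure_induction (p := fun b _ => Commute a b) (fun b hb => h.T_commute ha hb)
      (Commute.one_right _) (fun _ _ _ _ => Commute.mul_right) (fun _ _ => Commute.inv_right) hb
  refine ⟨Subgroup.closure h.T, ⟨fun a ha k => ?_⟩, fun x y => ?_, fun x r hr e => ?_⟩
  · refine Subgroup.closure_induction (p := fun a _ => k * a * k⁻¹ ∈ Subgroup.closure h.T)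
      (fun a ha => Subgroup.subset_closure (h.T_conj k ha)) (by simp) (fun a b _ _ h1 h2 => ?_)
      (fun a _ h1 => ?_) ha
    · convert mul_mem h1 h2 using 1
      group
    · convert inv_mem h1 using 1
      group
  · by_cases e : x = y
    · exact ⟨1, one_mem _, by rw [one_smul, e]⟩
    · obtain ⟨g, hg, e'⟩ := h.exists_T e
      exact ⟨g, Subgroup.subset_closure hg, e'⟩
  · have h2 : r ∈ h.Dil := (Subgroup.closure_le _).2 (fun a ha => ha.1) hr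
    refine h.ce2 (k := 1) e ((S.loc x).ce_of_fix (S.nm e) fun u hu => h2 u ⟨x, hu⟩) ?_
    rw [pow_one]
    refine Subgroup.closure_induction (p := fun a _ => a ^ 2 = 1)
      (fun a ha => by rw [pow_two, ha.2.1]) (one_pow _) (fun a b ha hb h3 h4 => ?_)
      (fun a _ h3 => by rw [inv_pow, h3, inv_one]) hr
    rw [(h1 a ha b hb).mul_pow, h3, h4, one_mul]

end Aff

/-- The affine case: there is a regular normal subgroup. -/
theorem affine [Finite G] [Finite Ω] (S : St G Ω q Q) (hF : S.Full) {x : Ω} {t : G}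
    (ht : t ∈ I (S.N x)) (hk : (F Ω t).ncard = Q) : ∃ R : Subgroup G, R.Normal ∧
      (∀ x y : Ω, ∃ r ∈ R, r • x = y) ∧ ∀ x : Ω, ∀ r ∈ R, r • x = x → r = 1 :=
  Aff.regular (S := S) ⟨hF, fun hu => (S.ncard_F hu ht).trans hk, St.Full.semi S hF,
    St.Full.S_fix S hF, St.Full.S_eq S hF, fun h1 h2 => St.Full.ce_two S hF h2 h1⟩

end Cfsg.Agent.BdI
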